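import Cfsg.Agent.MovedVector.Vanishing
import Cfsg.Agent.PGroup.Normal

/-!
Solvable groups in which all vanishing elements of order divisible by `p` have one order: the Sylow
`p`-subgroup modulo `O_p` has order at most `p`.
-/

set_option autoImplicit false
set_option linter.style.haveILetI false

namespace CfsgLib.MovedVector

open Cfsg CfsgLib.Chars

universe u

variable {p : ℕ} [hp : Fact p.Prime]

theorem exists_regular_vector {q : ℕ} [hq : Fact q.Prime] (hpq : p ≠ q) {C : Type*} [CommGroup C] [Finite C]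
    (hC : ∀ c : C, c ^ q = 1) (Q : Subgroup (MulAut C)) (hQ : IsPGroup p Q)
    (hQc : ∀ a ∈ Q, ∀ b ∈ Q, a * b = b * a) : ∃ c : C, ∀ e ∈ Q, e c = c → e = 1 := by
  haveI : Finite (MulAut C) := Finite.of_injective (fun e => (e : C → C)) DFunLike.coe_injective
  have key : ∀ a ∈ Q, ∀ u : C, a (a u * u⁻¹) = a u * u⁻¹ → a u * u⁻¹ = 1 := by
    intro a ha u hfix
    set w := a u * u⁻¹ with hw
    have hn : ∀ n : ℕ, (a ^ n) u = w ^ n * u := by
      intro n
      induction n with
      | zero => simp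
      | succ n ih =>
        rw [pow_succ', MulAut.mul_apply, ih, map_mul, map_pow, hfix, pow_succ, mul_assoc]
        congr 1
        rw [hw, inv_mul_cancel_right]
    obtain ⟨j, hj⟩ := hQ ⟨a, ha⟩
    have h1 := hn (p ^ j)
    rw [show a ^ p ^ j = 1 from congrArg Subtype.val hj, MulAut.one_apply, right_eq_mul] at h1
    have h2 := pow_gcd_eq_one.mpr ⟨h1, hC w⟩
    rwa [((Nat.coprime_primes hp.out hq.out).mpr hpq |>.pow_left j).gcd_eq_one, pow_one] at h2
  obtain ⟨v, -, hmin⟩ := Set.exists_min_image (Set.univ : Set C) (fun v => Nat.card {e : MulAut C // e ∈ Q ∧ e v = v})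
    Set.finite_univ ⟨1, trivial⟩
  refine ⟨v, fun a ha hav => ?_⟩
  by_contra ha1
  obtain ⟨u, hu⟩ : ∃ u, a u ≠ u := by
    by_contra h
    push Not at h
    exact ha1 (MulEquiv.ext h)
  set w := a u * u⁻¹ with hw
  have haw : a w ≠ w := fun h => hu (mul_inv_eq_one.mp (key a ha u h))
  have hsplit : ∀ e ∈ Q, e (v * w) = v * w → e v = v ∧ e w = w := by
    intro e he hfix
    rw [map_mul] at hfix
    have hcomm : ∀ x, a (e x) = e (a x) := fun x => DFunLike.congr_fun (hQc a ha e he) x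
    set u' := u * (e u)⁻¹ with hu'
    have hd : e v * v⁻¹ = a u' * u'⁻¹ := by
      have h1 : e v * v⁻¹ = w * (e w)⁻¹ := by
        rw [eq_mul_inv_iff_mul_eq, mul_right_comm, hfix, mul_right_comm, mul_inv_cancel, one_mul]
      rw [h1, hw, hu', map_mul, map_mul, map_inv, map_inv, hcomm, mul_inv, mul_inv, inv_inv]
      simp only [mul_comm, mul_assoc, mul_left_comm]
    have h2 := key a ha u' (by rw [← hd, map_mul, map_inv, hcomm, hav])
    rw [← hd, mul_inv_eq_one] at h2
    refine ⟨h2, ?_⟩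
    rw [h2] at hfix
    exact mul_left_cancel hfix
  have hlt : Nat.card {e : MulAut C // e ∈ Q ∧ e (v * w) = v * w} < Nat.card {e : MulAut C // e ∈ Q ∧ e v = v} := by
    classical
    haveI := Fintype.ofFinite {e : MulAut C // e ∈ Q ∧ e (v * w) = v * w}
    haveI := Fintype.ofFinite {e : MulAut C // e ∈ Q ∧ e v = v}
    rw [Nat.card_eq_fintype_card, Nat.card_eq_fintype_card]
    refine Fintype.card_lt_of_injective_of_notMem (Subtype.map id fun e he => ⟨he.1, (hsplit e he.1 he.2).1⟩)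
      (Subtype.map_injective _ Function.injective_id) (b := ⟨a, ha, hav⟩) ?_
    rintro ⟨⟨e, he⟩, hea⟩
    have hea' : e = a := congrArg Subtype.val hea
    exact haw (hea' ▸ (hsplit e he.1 he.2).2)
  exact absurd (hmin (v * w) trivial) (not_le.mpr hlt)

variable {G : Type u} [Group G] [Finite G]

/-- `g` is a vanishing element of order divisible by `p`. -/
def SingVanish (p : ℕ) {G : Type u} [Group G] [Finite G] (g : G) : Prop :=
  p ∣ orderOf g ∧ ∃ χ : IrrCharacter G, (χ : G → ℂ) g = 0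

omit hp in
theorem singVanish_of_lift {K : Type u} [Group K] [Finite K] (N : Subgroup G) [N.Normal] (e : G ⧸ N ≃* K) {g : G}
    (hdvd : p ∣ orderOf (e (g : G ⧸ N))) (hK : ∃ χ : IrrCharacter K, (χ : K → ℂ) (e (g : G ⧸ N)) = 0) :
    SingVanish p g := by
  refine ⟨hdvd.trans ?_, ?_⟩
  · rw [e.orderOf_eq]
    exact orderOf_map_dvd (QuotientGroup.mk' N) g
  obtain ⟨χ, hχ⟩ := hK
  exact ⟨inflate N ⟨_, isIrrCharacter_comp χ.2 e.toMonoidHom e.surjective⟩, hχ⟩

omit [Finite G] in
theorem orderOf_eq_pow_of_pow_eq_one {x : G} (hx : ∃ j, x ^ p ^ j = 1) : ∃ i, orderOf x = p ^ i := by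
  obtain ⟨j, hj⟩ := hx
  obtain ⟨i, -, hi⟩ := (Nat.dvd_prime_pow hp.out).1 (orderOf_dvd_of_pow_eq_one hj)
  exact ⟨i, hi⟩

omit hp in
theorem exists_power_pPart [Fact p.Prime] (g : G) :
    ∃ a m : ℕ, ¬ p ∣ m ∧ orderOf g = p ^ a * m ∧ (g ^ m) ^ p ^ a = 1 := by
  obtain ⟨a, m, hm, ham⟩ := Nat.exists_eq_pow_mul_and_not_dvd (orderOf_pos g).ne' p
    (Fact.out : p.Prime).ne_one
  exact ⟨a, m, hm, ham, by rw [← pow_mul, mul_comm, ← ham, pow_orderOf_eq_one]⟩

/-- The case `p = 2`. -/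
theorem card_image_le_two (hG : Group.IsSolvable G) (h2 : p = 2)
    (hord : ∀ g g' : G, SingVanish p g → SingVanish p g' → orderOf g = orderOf g') (P : Sylow p G) (n : ℕ) :
    ∀ (N : Subgroup G) [N.Normal], N.index ≤ n → pCore p (G ⧸ N) = ⊥ →
      Nat.card ((P : Subgroup G).map (QuotientGroup.mk' N)) ≤ p := by
  classical
  induction n with
  | zero => intro N _ hN; exact absurd (Nat.le_zero.mp hN) Subgroup.index_ne_zero_of_finite
  | succ n ih =>
  intro N _ hN hcore
  rcases subsingleton_or_nontrivial (G ⧸ N) with hs | hn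
  · exact le_trans (le_of_eq (Nat.card_eq_one_iff_unique.mpr ⟨inferInstance, ⟨1⟩⟩)) hp.out.one_lt.le
  haveI := hG
  obtain ⟨M, q, k, hMn, hM1, -, hMc, hq, -, hMcard, hMe⟩ :=
    CfsgLib.Solvable.exists_minimal_normal_of_solvable (G := G ⧸ N)
  haveI := hMn
  haveI := Fact.mk hq
  have hpq : p ≠ q := fun e => hM1 (le_bot_iff.mp (hcore ▸
    CfsgLib.Constrained.le_pCore hMn (IsPGroup.of_card (n := k) (e ▸ hMcard))))
  set π := QuotientGroup.mk' N with hπ
  have hπs : Function.Surjective π := QuotientGroup.mk'_surjective N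
  let σ : G →* (G ⧸ N) ⧸ M := (QuotientGroup.mk' M).comp π
  have hσs : Function.Surjective σ := (QuotientGroup.mk'_surjective M).comp hπs
  set P' := (P : Subgroup G).map π with hP'
  -- the image is unchanged modulo `M`
  have hsame : Nat.card P' = Nat.card ((P : Subgroup G).map σ) := by
    rw [← Subgroup.map_map (g := QuotientGroup.mk' M) (f := π)]
    refine Nat.card_congr (Equiv.ofBijective
      (fun x => ⟨QuotientGroup.mk' M (x : G ⧸ N), ⟨x, x.2, rfl⟩⟩) ⟨fun x y hxy => ?_, ?_⟩)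
    · have hxM : (x : G ⧸ N)⁻¹ * y ∈ M := QuotientGroup.eq.mp (congrArg Subtype.val hxy)
      obtain ⟨j, hj⟩ := (P.isPGroup'.map π) (x⁻¹ * y)
      have h2 := pow_gcd_eq_one.mpr ⟨show ((x : G ⧸ N)⁻¹ * y) ^ p ^ j = 1 from congrArg Subtype.val hj, hMe _ hxM⟩
      rw [((Nat.coprime_primes hp.out hq).mpr hpq |>.pow_left j).gcd_eq_one, pow_one, inv_mul_eq_one] at h2
      exact Subtype.ext h2
    · rintro ⟨_, y, hy, rfl⟩
      exact ⟨⟨y, hy⟩, rfl⟩
  by_cases hcore1 : pCore p ((G ⧸ N) ⧸ M) = ⊥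
  · set N₁ := M.comap π with hN₁
    have hlt : N₁.index ≤ n := by
      have h1 : N₁.index = M.index := Subgroup.index_comap_of_surjective M hπs
      have h2 : Nat.card ((G ⧸ N) ⧸ M) < Nat.card (G ⧸ N) := CfsgLib.Solvable.card_quotient_lt M hM1
      rw [← Subgroup.index_eq_card, ← Subgroup.index_eq_card] at h2
      omega
    have hker : σ.ker = N₁ := by
      show ((QuotientGroup.mk' M).comp π).ker = _
      rw [← MonoidHom.comap_ker, QuotientGroup.ker_mk']
    let e : G ⧸ N₁ ≃* (G ⧸ N) ⧸ M :=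
      (QuotientGroup.quotientMulEquivOfEq hker.symm).trans (QuotientGroup.quotientKerEquivOfSurjective σ hσs)
    have hc : pCore p (G ⧸ N₁) = ⊥ := by
      rw [eq_bot_iff]
      intro x hx
      have h := CfsgLib.Constrained.map_pCore_le (p := p) e.toMonoidHom e.surjective ⟨x, hx, rfl⟩
      rw [hcore1, Subgroup.mem_bot] at h
      exact Subgroup.mem_bot.mpr (e.injective (by rw [map_one]; exact h))
    refine le_trans (le_of_eq ?_) (ih N₁ hlt hc)
    rw [hsame, ← Subgroup.card_map_of_injective (f := e.toMonoidHom) e.injective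
      (K := (P : Subgroup G).map (QuotientGroup.mk' N₁)), Subgroup.map_map]
    rfl
  -- vanishing lifts
  haveI := hG
  have hvan : ∀ A : Subgroup ((G ⧸ N) ⧸ M), A.Normal → A ≤ pCore p ((G ⧸ N) ⧸ M) →
      (∀ a ∈ A, ∀ b ∈ A, a * b = b * a) → ∀ g : G, (∃ i : ℕ, σ g ^ i ∈ A ∧ σ g ^ i ≠ 1) → SingVanish p g := by
    intro A hAn hAle hAc g ⟨i, hiA, hi1⟩
    haveI := hAn
    set k' := π g with hk'
    obtain ⟨a, m, hm, ham, hma⟩ := exists_power_pPart (p := p) k'
    -- the `p`-part of a suitable power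
    set x := (k' ^ i) ^ m with hx
    have hxp : x ^ p ^ a = 1 := by
      rw [hx, ← pow_mul, ← pow_mul, mul_comm i, pow_mul, mul_comm m, ← ham, pow_orderOf_eq_one, one_pow]
    have hσx : QuotientGroup.mk' M x = (σ g ^ i) ^ m := by rw [hx, map_pow, map_pow]; rfl
    have hx1 : QuotientGroup.mk' M x ≠ 1 := by
      rw [hσx]
      intro h
      obtain ⟨j, hj⟩ := CfsgLib.Constrained.isPGroup_pCore (p := p) ⟨_, hAle hiA⟩
      have h3 := pow_gcd_eq_one.mpr ⟨show (σ g ^ i) ^ p ^ j = 1 from congrArg Subtype.val hj, h⟩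
      rw [((hp.out.coprime_iff_not_dvd).mpr hm |>.pow_left j).gcd_eq_one, pow_one] at h3
      exact hi1 h3
    have hxA : QuotientGroup.mk' M x ∈ A := by rw [hσx]; exact pow_mem hiA m
    haveI := finite_dual M
    let L := A.comap (QuotientGroup.mk' M)
    obtain ⟨l, hl⟩ := exists_regular_vector (p := p) (q := q) hpq (C := M →* ℂˣ) (dual_pow_eq_one M hMe)
      (L.map (dualAction M)) ((isPGroup_map_dualAction (p := p) M hMc).to_le
        (Subgroup.map_mono (Subgroup.comap_mono hAle))) (by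
      rintro _ ⟨b, hb, rfl⟩ _ ⟨c, hc, rfl⟩
      rw [← map_mul, ← map_mul, ← mul_inv_eq_one, ← map_inv, ← map_mul]
      have hbc : b * c * (c * b)⁻¹ ∈ M := by
        rw [← QuotientGroup.eq_one_iff, QuotientGroup.mk_mul, QuotientGroup.mk_inv, QuotientGroup.mk_mul,
          QuotientGroup.mk_mul, mul_inv_eq_one]
        exact hAc _ hb _ hc
      refine MulEquiv.ext fun μ => MonoidHom.ext fun z => ?_
      show μ ((MulAut.conjNormal (b * c * (c * b)⁻¹) : MulAut M)⁻¹ z) = μ z
      congr 1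
      rw [← map_inv]
      refine Subtype.ext ?_
      rw [MulAut.conjNormal_apply]
      have hcz := congrArg Subtype.val (hMc.is_comm.comm (⟨_, inv_mem hbc⟩ : M) z)
      rw [Subgroup.coe_mul, Subgroup.coe_mul] at hcz
      rw [hcz, mul_inv_cancel_right])
    refine singVanish_of_lift N (MulEquiv.refl _) ?_ ?_
    · show p ∣ orderOf k'
      rw [ham]
      rcases Nat.eq_zero_or_pos a with rfl | ha
      · exact absurd (by rw [pow_zero, pow_one] at hxp; rw [hxp, map_one]) hx1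
      · exact dvd_mul_of_dvd_left (dvd_pow_self p ha.ne') m
    refine exists_zero_of_moved M (x := x) (Subgroup.pow_mem _ (Subgroup.pow_mem _ (Subgroup.mem_zpowers _) i) m) l
      fun y hy => ?_
    have hymem : QuotientGroup.mk' M (y * x * y⁻¹) ∈ A := by
      rw [map_mul, map_mul, map_inv]; exact hAn.conj_mem _ hxA _
    have h1 := hl _ ⟨_, hymem, rfl⟩ hy
    refine conjNormal_ne_one M (p := p) ⟨a, by rw [conj_pow, hxp, mul_one, mul_inv_cancel]⟩
      (hAle hymem) ?_ (conjNormal_eq_one_of_dualAction M hMc h1)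
    rw [hcore, Subgroup.mem_bot, conj_eq_one_iff]
    exact fun h => hx1 (by rw [h, map_one])
  -- one order, a power of `p`
  set R := pCore p ((G ⧸ N) ⧸ M) with hR
  have hRp : IsPGroup p R := CfsgLib.Constrained.isPGroup_pCore
  have hlift : ∀ u : (G ⧸ N) ⧸ M, u ∈ R → ∃ w : G, (∃ j, w ^ p ^ j = 1) ∧ σ w = u := by
    intro u hu
    obtain ⟨g, rfl⟩ := hσs u
    obtain ⟨a, m, hm, -, hma⟩ := exists_power_pPart (p := p) g
    obtain ⟨j, hj⟩ := hRp ⟨σ g, hu⟩
    obtain ⟨r, hr⟩ := exists_pow_eq_self_of_coprime (x := σ g) (n := m) (Nat.Coprime.coprime_dvd_right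
      (orderOf_dvd_of_pow_eq_one (show σ g ^ p ^ j = 1 from congrArg Subtype.val hj))
      (((hp.out.coprime_iff_not_dvd).mpr hm).symm.pow_right j))
    exact ⟨(g ^ m) ^ r, ⟨a, by rw [← pow_mul, mul_comm r, pow_mul, hma, one_pow]⟩, by rw [map_pow, map_pow, hr]⟩
  have hAone : ∀ A : Subgroup ((G ⧸ N) ⧸ M), A.Normal → A ≤ R → (∀ a ∈ A, ∀ b ∈ A, a * b = b * a) →
      Nat.card A ≤ p := by
    intro A hAn hAle hAc
    by_contra hbig
    push Not at hbig
    have hexp : ∀ a ∈ A, a ^ p = 1 := by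
      intro a ha
      by_contra hap
      have ha1 : a ≠ 1 := fun h => hap (by rw [h, one_pow])
      obtain ⟨w, hw, rfl⟩ := hlift a (hAle ha)
      have h := hord w (w ^ p) (hvan A hAn hAle hAc w ⟨1, by rw [pow_one]; exact ⟨ha, ha1⟩⟩)
        (hvan A hAn hAle hAc (w ^ p) ⟨1, by rw [pow_one, map_pow]; exact ⟨pow_mem ha p, hap⟩⟩)
      obtain ⟨i, hi⟩ := orderOf_eq_pow_of_pow_eq_one hw
      have hi0 : i ≠ 0 := fun h => ha1 (by
        rw [orderOf_eq_one_iff.mp (show orderOf w = 1 by rw [hi, h, pow_zero]), map_one])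
      rw [orderOf_pow' w hp.out.ne_zero, hi, Nat.gcd_eq_right (dvd_pow_self p hi0)] at h
      have := Nat.div_lt_self (pow_pos hp.out.pos i) hp.out.one_lt
      omega
    haveI : Nontrivial A := Finite.one_lt_card_iff_nontrivial.mp (lt_trans hp.out.one_lt hbig)
    obtain ⟨⟨c, hcA⟩, hc1⟩ := exists_ne (1 : A)
    have hc1' : c ≠ 1 := fun h => hc1 (Subtype.ext h)
    obtain ⟨b, hbA, hbc⟩ : ∃ b ∈ A, b ∉ Subgroup.zpowers c := by
      by_contra h
      push Not at h
      have := Nat.le_of_dvd Nat.card_pos (Subgroup.card_dvd_of_le (show A ≤ Subgroup.zpowers c from h))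
      rw [Nat.card_zpowers, orderOf_eq_prime (hexp c hcA) hc1'] at this
      omega
    -- lift to commuting elements modulo `M`
    obtain ⟨wb, hwb, rfl⟩ := hlift b (hAle hbA)
    obtain ⟨wc, hwc, rfl⟩ := hlift c (hAle hcA)
    letI : CommGroup M := { (inferInstance : Group M) with mul_comm := hMc.is_comm.comm }
    letI : Module (ZMod q) (Additive M) :=
      AddCommGroup.zmodModule (n := q) (fun v : Additive M => Additive.toMul.injective
        (show (Additive.toMul v) ^ q = 1 from Subtype.ext (hMe _ (Additive.toMul v).2)))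
    let f : G ⧸ N →* Module.End (ZMod q) (Additive M) := (autEnd q M).comp (MulAut.conjNormal (H := M))
    let ρ : (G ⧸ N) ⧸ M →* Module.End (ZMod q) (Additive M) := QuotientGroup.lift M f (by
      intro x hx
      refine LinearMap.ext fun v => Additive.toMul.injective (Subtype.ext ?_)
      show x * ((Additive.toMul v : M) : G ⧸ N) * x⁻¹ = (Additive.toMul v : M)
      rw [show x * ((Additive.toMul v : M) : G ⧸ N) = (Additive.toMul v : M) * x from
        congrArg Subtype.val (hMc.is_comm.comm (⟨x, hx⟩ : M) (Additive.toMul v)), mul_inv_cancel_right])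
    have hbot : ∀ v : Additive M, v = 0 := by
      refine eq_zero_of_fpf_pair (p := p) (fun h => hpq (((Nat.prime_dvd_prime_iff_eq hq hp.out).mp
        ((ZMod.natCast_eq_zero_iff p q).mp h)).symm)) ρ (hAc _ hbA _ hcA)
        (orderOf_eq_prime (hexp _ hbA) fun h => hbc (h ▸ one_mem _))
        (orderOf_eq_prime (hexp _ hcA) hc1') hbc ?_
      intro y hy hy1 v hv
      by_contra hv0
      have hyA : y ∈ A := (Subgroup.closure_le A).mpr (by
        intro z hz
        rcases hz with rfl | rfl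
        · exact hbA
        · exact hcA) hy
      obtain ⟨w, hw, rfl⟩ := hlift y (hAle hyA)
      obtain ⟨g, hg⟩ := hπs (π w * ((Additive.toMul v : M) : G ⧸ N))
      have hcomm : Commute (π w) ((Additive.toMul v : M) : G ⧸ N) :=
        mul_inv_eq_iff_eq_mul.mp (congrArg (fun u : Additive M => ((Additive.toMul u : M) : G ⧸ N)) hv :
          π w * ((Additive.toMul v : M) : G ⧸ N) * (π w)⁻¹ = ((Additive.toMul v : M) : G ⧸ N))
      have hgσ : σ g = σ w := by
        show QuotientGroup.mk' M (π g) = _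
        rw [hg, map_mul]
        show QuotientGroup.mk' M (π w) * _ = QuotientGroup.mk' M (π w)
        exact (congrArg (_ * ·) ((QuotientGroup.eq_one_iff _).mpr (Additive.toMul v).2)).trans (mul_one _)
      have h := hord g w (hvan A hAn hAle hAc g ⟨1, by rw [pow_one, hgσ]; exact ⟨hyA, hy1⟩⟩)
        (hvan A hAn hAle hAc w ⟨1, by rw [pow_one]; exact ⟨hyA, hy1⟩⟩)
      obtain ⟨i, hi⟩ := orderOf_eq_pow_of_pow_eq_one hw
      obtain ⟨i', hi'⟩ := orderOf_eq_pow_of_pow_eq_one (x := π w) (by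
        obtain ⟨j, hj⟩ := hw; exact ⟨j, by rw [← map_pow, hj, map_one]⟩)
      have hv1 : ((Additive.toMul v : M) : G ⧸ N) ≠ 1 := fun hh => hv0 (Additive.toMul.injective (Subtype.ext hh))
      have hdvd : q ∣ orderOf g := by
        refine dvd_trans ?_ (orderOf_map_dvd π g)
        rw [hg, hcomm.orderOf_mul_eq_mul_orderOf_of_coprime (by
          rw [hi', orderOf_eq_prime (hMe _ (Additive.toMul v).2) hv1]
          exact ((Nat.coprime_primes hp.out hq).mpr hpq).pow_left i'), orderOf_eq_prime (hMe _ (Additive.toMul v).2) hv1]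
        exact dvd_mul_left q _
      rw [h, hi] at hdvd
      exact hpq ((Nat.prime_dvd_prime_iff_eq hq hp.out).mp (hq.dvd_of_dvd_pow hdvd)).symm
    refine hM1 ((Subgroup.eq_bot_iff_forall M).mpr fun v hv => ?_)
    exact congrArg (fun u : Additive M => ((Additive.toMul u : M) : G ⧸ N)) (hbot (Additive.ofMul ⟨v, hv⟩))
  -- the centre of `R`
  subst h2
  set A₀ := (Subgroup.center R).map R.subtype with hA₀
  haveI : A₀.Normal := ConjAct.normal_of_characteristic_of_normal
  have hA₀le : A₀ ≤ R := Subgroup.map_subtype_le _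
  have hA₀c : ∀ a ∈ A₀, ∀ b ∈ A₀, a * b = b * a := by
    rintro _ ⟨a, ha, rfl⟩ _ ⟨b, hb, rfl⟩
    exact congrArg Subtype.val (Subgroup.mem_center_iff.mp hb a)
  haveI : Nontrivial R := (Subgroup.nontrivial_iff_ne_bot R).mpr hcore1
  haveI := hRp.center_nontrivial
  obtain ⟨⟨⟨z, hzR⟩, hzc⟩, hz1⟩ := exists_ne (1 : Subgroup.center R)
  have hzA : z ∈ A₀ := ⟨⟨z, hzR⟩, hzc, rfl⟩
  have hz1' : z ≠ 1 := fun h => hz1 (Subtype.ext (Subtype.ext h))
  have hcard0 : Nat.card A₀ = 2 := by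
    refine le_antisymm (hAone A₀ inferInstance hA₀le hA₀c) ?_
    haveI : Nontrivial A₀ := ⟨⟨⟨z, hzA⟩, 1, fun h => hz1' (congrArg Subtype.val h)⟩⟩
    exact Finite.one_lt_card
  have hzcen : ∀ y, y * z = z * y := by
    intro y
    have hmem : y * z * y⁻¹ ∈ A₀ := (inferInstance : A₀.Normal).conj_mem z hzA y
    obtain ⟨a, b, hab, huniv⟩ := Nat.card_eq_two_iff.mp hcard0
    have h1 : ∀ u : A₀, u = ⟨1, one_mem _⟩ ∨ u = ⟨z, hzA⟩ := by
      intro u
      have hu := huniv.symm ▸ Set.mem_univ u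
      have h1' := huniv.symm ▸ Set.mem_univ (⟨1, one_mem _⟩ : A₀)
      have hz' := huniv.symm ▸ Set.mem_univ (⟨z, hzA⟩ : A₀)
      rcases hu with rfl | rfl <;> rcases h1' with h | h <;> rcases hz' with h' | h' <;>
        first
        | exact Or.inl h.symm
        | exact Or.inr h'.symm
        | exact absurd (congrArg Subtype.val (h'.trans h.symm)) hz1'
    rcases h1 ⟨_, hmem⟩ with h | h
    · exact absurd (conj_eq_one_iff.mp (congrArg Subtype.val h)) hz1'
    · exact mul_inv_eq_iff_eq_mul.mp (congrArg Subtype.val h)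
  -- everything modulo `M` is a `2`-group
  have hall : IsPGroup 2 ((G ⧸ N) ⧸ M) := by
    intro y
    obtain ⟨g, rfl⟩ := hσs y
    obtain ⟨w, hw, hwz⟩ := hlift z hzR
    obtain ⟨a, m, hm, ham, hma⟩ := exists_power_pPart (p := 2) g
    set h := g ^ 2 ^ a with hh
    have hhm : h ^ m = 1 := by rw [hh, ← pow_mul, ← ham, pow_orderOf_eq_one]
    refine ⟨a, ?_⟩
    by_contra hne
    obtain ⟨g', hg'⟩ := hσs (z * σ h)
    have hcop : (orderOf z).Coprime (orderOf (σ h)) := by
      obtain ⟨j, hj⟩ := hRp ⟨z, hzR⟩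
      refine Nat.Coprime.coprime_dvd_left (orderOf_dvd_of_pow_eq_one (congrArg Subtype.val hj)) ?_
      refine Nat.Coprime.coprime_dvd_right (orderOf_dvd_of_pow_eq_one (by rw [← map_pow, hhm, map_one])) ?_
      exact ((Nat.prime_two.coprime_iff_not_dvd).mpr hm).pow_left j
    have hpz : σ g' ^ orderOf (σ h) ∈ A₀ ∧ σ g' ^ orderOf (σ h) ≠ 1 := by
      rw [hg', (show Commute z (σ h) from (hzcen _).symm).mul_pow, pow_orderOf_eq_one, mul_one]
      refine ⟨pow_mem hzA _, fun e => hz1' ?_⟩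
      rw [← orderOf_eq_one_iff]
      exact Nat.eq_one_of_dvd_coprimes hcop dvd_rfl (orderOf_dvd_of_pow_eq_one e)
    have he := hord g' w (hvan A₀ inferInstance hA₀le hA₀c g' ⟨_, hpz⟩)
      (hvan A₀ inferInstance hA₀le hA₀c w ⟨1, by rw [pow_one, hwz]; exact ⟨hzA, hz1'⟩⟩)
    obtain ⟨i, hi⟩ := orderOf_eq_pow_of_pow_eq_one hw
    have hd : orderOf (σ h) ∣ 2 ^ i := by
      rw [← hi, ← he]
      refine dvd_trans ?_ (orderOf_map_dvd σ g')
      rw [hg', (show Commute z (σ h) from (hzcen _).symm).orderOf_mul_eq_mul_orderOf_of_coprime hcop]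
      exact dvd_mul_left _ _
    have h1 : σ h = 1 := orderOf_eq_one_iff.mp (Nat.eq_one_of_dvd_coprimes
      (((Nat.prime_two.coprime_iff_not_dvd).mpr hm).pow_left i) hd
      (orderOf_dvd_of_pow_eq_one (by rw [← map_pow, hhm, map_one])))
    exact hne (by rw [← map_pow]; exact h1)
  have htop : R = ⊤ := top_le_iff.mp (CfsgLib.Constrained.le_pCore inferInstance (hall.to_subgroup ⊤))
  rw [hsame]
  refine le_trans (Nat.le_of_dvd Nat.card_pos (Subgroup.card_subgroup_dvd_card _)) ?_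
  by_contra hbig
  push Not at hbig
  obtain ⟨j, hj⟩ := IsPGroup.iff_card.mp hall
  have hj2 : 2 ≤ j := by
    by_contra h
    push Not at h
    have : 2 ^ j ≤ 2 ^ 1 := Nat.pow_le_pow_right (by norm_num) (by omega)
    omega
  obtain ⟨A, hAn, -, hA⟩ := CfsgLib.PGroup.exists_normal_card_pow hall ⊤ (k := 2)
    (by rw [Subgroup.card_top, hj]; exact pow_dvd_pow 2 hj2)
  exact absurd (hAone A hAn (htop ▸ le_top) fun a ha b hb => congrArg Subtype.val
    (IsPGroup.commutative_of_card_eq_prime_sq (p := 2) hA (⟨a, ha⟩ : A) ⟨b, hb⟩)) (by rw [hA]; norm_num)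

/-- The general statement given equal orders. -/
theorem card_image_le {G : Type u} [Group G] [Finite G] {p : ℕ} [hp : Fact p.Prime] (P : Sylow p G)
    (hG : Group.IsSolvable G)
    (hone : ∀ g g' : G, (∃ x ∈ Subgroup.zpowers g, (∃ j, x ^ p ^ j = 1) ∧ x ∉ Cfsg.pCore p G) →
      (∃ x ∈ Subgroup.zpowers g', (∃ j, x ^ p ^ j = 1) ∧ x ∉ Cfsg.pCore p G) → orderOf g = orderOf g') :
    Nat.card ((P : Subgroup G).map (QuotientGroup.mk' (Cfsg.pCore p G))) ≤ p := by
  classical
  set O := Cfsg.pCore p G with hO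
  set π := QuotientGroup.mk' O with hπ
  set P' : Subgroup (G ⧸ O) := (P : Subgroup G).map π with hP'
  -- the Sylow group modulo `O` has exponent `p`
  have hexp : ∀ y ∈ P', y ^ p = 1 := by
    rintro _ ⟨x, hx, rfl⟩
    rw [← map_pow]
    refine (QuotientGroup.eq_one_iff _).mpr ?_
    by_contra hxp
    obtain ⟨j, hj⟩ := P.isPGroup' ⟨x, hx⟩
    have hxj : x ^ p ^ j = 1 := congrArg Subtype.val hj
    have hxO : x ∉ O := fun h => hxp (pow_mem h p)
    have hc := hone x (x ^ p) ⟨x, Subgroup.mem_zpowers x, ⟨j, hxj⟩, hxO⟩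
      ⟨x ^ p, Subgroup.mem_zpowers _, ⟨j, by rw [← pow_mul, mul_comm, pow_mul, hxj, one_pow]⟩, hxp⟩
    have ho : orderOf x = orderOf (x ^ p) := hc
    obtain ⟨i, hi⟩ := IsPGroup.iff_orderOf.mp P.isPGroup' ⟨x, hx⟩
    rw [Subgroup.orderOf_mk] at hi
    have hi0 : i ≠ 0 := fun h => hxO (by
          rw [orderOf_eq_one_iff.mp (show orderOf x = 1 by rw [hi, h, pow_zero])]; exact one_mem _)
    rw [orderOf_pow' x hp.out.ne_zero, hi, Nat.gcd_eq_right (dvd_pow_self p hi0)] at ho
    have := Nat.div_lt_self (pow_pos hp.out.pos i) hp.out.one_lt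
    omega
  by_contra hbig
  push Not at hbig
  -- two commuting elements
  have hP'p : IsPGroup p P' := P.isPGroup'.map π
  obtain ⟨b, c, hb, hc, hbc, hne⟩ : ∃ b c : G ⧸ O, b ∈ P' ∧ c ∈ P' ∧ b * c = c * b ∧
      (c ≠ 1 ∧ b ∉ Subgroup.zpowers c) := by
    haveI : Nontrivial P' := Finite.one_lt_card_iff_nontrivial.mp (lt_of_le_of_lt hp.out.one_lt.le hbig)
    haveI := hP'p.center_nontrivial
    obtain ⟨⟨c, hc⟩, hc1⟩ := exists_ne (1 : Subgroup.center P')
    have hc1' : (c : G ⧸ O) ≠ 1 := fun h => hc1 (Subtype.ext (Subtype.ext h))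
    by_contra hcon
    push Not at hcon
    have hle : P' ≤ Subgroup.zpowers (c : G ⧸ O) := fun b hb =>
      hcon b c hb c.2 (congrArg Subtype.val (Subgroup.mem_center_iff.mp hc ⟨b, hb⟩)) hc1'
    have := Nat.le_of_dvd Nat.card_pos (Subgroup.card_dvd_of_le hle)
    rw [Nat.card_zpowers, orderOf_eq_prime (hexp _ c.2) hc1'] at this
    exact absurd this (not_le.mpr hbig)
  obtain ⟨hc1, hbne⟩ := hne
  have hb1 : b ≠ 1 := fun h => hbne (h ▸ one_mem _)
  haveI : Nontrivial (G ⧸ O) := ⟨⟨b, 1, hb1⟩⟩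
  haveI := hG
  obtain ⟨M, q, k, hMn, hM1, -, hMc, hq, -, hMcard, hMe⟩ :=
    CfsgLib.Solvable.exists_minimal_normal_of_solvable (G := G ⧸ O)
  haveI := hMn
  haveI := Fact.mk hq
  have hpq : p ≠ q := fun e => hM1 (le_bot_iff.mp (CfsgLib.Constrained.pCore_quotient_pCore (p := p) (G := G) ▸
    CfsgLib.Constrained.le_pCore hMn (IsPGroup.of_card (n := k) (e ▸ hMcard))))
  -- fixed-point-free
  have hfpf : ∀ y ∈ P', y ≠ 1 → ∀ v ∈ M, y * v = v * y → v = 1 := by
    intro y hy hy1 v hv hyv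
    by_contra hv1
    obtain ⟨x₀, hx₀, rfl⟩ := hy
    obtain ⟨g, hg⟩ := QuotientGroup.mk'_surjective O (π x₀ * v)
    obtain ⟨a, m, hm, ham⟩ := Nat.exists_eq_pow_mul_and_not_dvd (orderOf_pos g).ne' p hp.out.ne_one
    have hord : orderOf (π x₀ * v) = p * q := by
      have h1 : orderOf (π x₀) = p := orderOf_eq_prime (hexp _ ⟨x₀, hx₀, rfl⟩) hy1
      have h2 : orderOf v = q := orderOf_eq_prime (hMe v hv) hv1
      rw [(show Commute (π x₀) v from hyv).orderOf_mul_eq_mul_orderOf_of_coprime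
        (by rw [h1, h2]; exact (Nat.coprime_primes hp.out hq).mpr hpq), h1, h2]
    have hdvd : p * q ∣ orderOf g := hord ▸ hg ▸ orderOf_map_dvd π g
    have hqm : q ∣ m := by
      have h := dvd_trans (dvd_mul_left q p) hdvd
      rw [ham] at h
      exact (hq.dvd_mul.mp h).resolve_left fun h =>
        hpq ((Nat.prime_dvd_prime_iff_eq hq hp.out).mp (hq.dvd_of_dvd_pow h)).symm
    have hxO : g ^ m ∉ O := by
      intro h
      have h1 : (π x₀ * v) ^ m = 1 := by rw [← hg, ← map_pow]; exact (QuotientGroup.eq_one_iff _).mpr h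
      rw [← orderOf_dvd_iff_pow_eq_one, hord] at h1
      exact hm (dvd_trans (dvd_mul_right p q) h1)
    have hx0O : x₀ ∉ O := fun h => hy1 ((QuotientGroup.eq_one_iff _).mpr h)
    obtain ⟨j, hj⟩ := P.isPGroup' ⟨x₀, hx₀⟩
    have hc := hone g x₀ ⟨g ^ m, Subgroup.pow_mem _ (Subgroup.mem_zpowers g) m,
        ⟨a, by rw [← pow_mul, mul_comm, ← ham, pow_orderOf_eq_one]⟩, hxO⟩
      ⟨x₀, Subgroup.mem_zpowers x₀, ⟨j, congrArg Subtype.val hj⟩, hx0O⟩
    obtain ⟨i, hi⟩ := IsPGroup.iff_orderOf.mp P.isPGroup' ⟨x₀, hx₀⟩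
    rw [Subgroup.orderOf_mk] at hi
    have ho : orderOf g = p ^ i := hc.trans hi
    rw [ho] at hdvd
    exact hpq ((Nat.prime_dvd_prime_iff_eq hq hp.out).mp (hq.dvd_of_dvd_pow ((dvd_mul_left q p).trans hdvd))).symm
  letI : CommGroup M := { (inferInstance : Group M) with mul_comm := hMc.is_comm.comm }
  letI : Module (ZMod q) (Additive M) :=
    AddCommGroup.zmodModule (n := q) (fun v : Additive M => Additive.toMul.injective
      (show (Additive.toMul v) ^ q = 1 from Subtype.ext (hMe _ (Additive.toMul v).2)))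
  let ρ : G ⧸ O →* Module.End (ZMod q) (Additive M) := (autEnd q M).comp (MulAut.conjNormal (H := M))
  have hbot : ∀ v : Additive M, v = 0 := by
    refine eq_zero_of_fpf_pair (p := p) (fun h => hpq (((Nat.prime_dvd_prime_iff_eq hq hp.out).mp
      ((ZMod.natCast_eq_zero_iff p q).mp h)).symm)) ρ hbc (orderOf_eq_prime (hexp b hb) hb1)
      (orderOf_eq_prime (hexp c hc) hc1) hbne ?_
    intro y hy hy1 v hv
    have hyP : y ∈ P' := (Subgroup.closure_le _).mpr (by
      intro z hz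
      rcases hz with rfl | rfl
      · exact hb
      · exact hc) hy
    refine Additive.toMul.injective (Subtype.ext (hfpf y hyP hy1 _ (Additive.toMul v).2 ?_))
    have h : y * ((Additive.toMul v : M) : G ⧸ O) * y⁻¹ = (Additive.toMul v : M) :=
      congrArg (fun w : Additive M => ((Additive.toMul w : M) : G ⧸ O)) hv
    exact mul_inv_eq_iff_eq_mul.mp h
  refine hM1 ((Subgroup.eq_bot_iff_forall M).mpr fun v hv => ?_)
  exact congrArg (fun w : Additive M => ((Additive.toMul w : M) : G ⧸ O)) (hbot (Additive.ofMul ⟨v, hv⟩))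

end CfsgLib.MovedVector
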